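import Cfsg.Agent.Lib.Helper90.CoprimeAbelian

set_option autoImplicit false

namespace Cfsg.Agent.Lib.Helper90

/-- A coprime group of automorphisms of a finite abelian `p`-group fixing all elements of order
dividing `p` is trivial. -/
theorem fixedSub_eq_top_of_fixes_omega {V : Type*} [Group V] [Finite V] {p : ℕ} [Fact p.Prime]
    (hcomm : ∀ x y : V, x * y = y * x) (hp : IsPGroup p V)
    (A : Subgroup (MulAut V)) (hcop : (Nat.card V).Coprime (Nat.card A))
    (hfix : ∀ α ∈ A, ∀ x : V, x ^ p = 1 → α x = x) : fixedSub A = ⊤ := by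
  obtain ⟨h1, h2⟩ := fitting_abelian hcomm A hcop
  have hbot : commSub A = ⊥ := by
    by_contra hne
    have hnt : Nontrivial (commSub A) := (Subgroup.nontrivial_iff_ne_bot _).2 hne
    have hcp : IsPGroup p (commSub A) := hp.to_subgroup _
    obtain ⟨n, hn⟩ := IsPGroup.iff_card.1 hcp
    have hn0 : n ≠ 0 := by
      rintro rfl
      have h0 : Nat.card (commSub A) = 1 := by simpa using hn
      have h1 := Finite.one_lt_card (α := commSub A)
      omega
    have hdvd : p ∣ Nat.card (commSub A) := by
      rw [hn]; exact dvd_pow_self p hn0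
    obtain ⟨y, hy⟩ := exists_prime_orderOf_dvd_card' p hdvd
    have hy' : orderOf (y : V) = p := by rw [Subgroup.orderOf_coe]; exact hy
    have hyp : (y : V) ^ p = 1 := by rw [← hy', pow_orderOf_eq_one]
    have hmem : (y : V) ∈ fixedSub A ⊓ commSub A := ⟨fun α hα => hfix α hα _ hyp, y.2⟩
    rw [h1, Subgroup.mem_bot] at hmem
    rw [hmem, orderOf_one] at hy'
    exact (Fact.out : p.Prime).one_lt.ne hy'
  rw [hbot, sup_bot_eq] at h2
  exact h2

end Cfsg.Agent.Lib.Helper90
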