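import Mathlib

set_option autoImplicit false

namespace Cfsg.Agent.Lib.Helper90

theorem zmod_two_mul_eq_zero {k : ℕ} (hk : 1 ≤ k) (x : ZMod (2 ^ k)) (h : 2 * x = 0) :
    x = 0 ∨ x = 2 ^ (k - 1) := by
  obtain ⟨k', rfl⟩ : ∃ k', k = k' + 1 := ⟨k - 1, by omega⟩
  have hne : NeZero (2 ^ (k' + 1)) := ⟨by positivity⟩
  have hx : x = ((x.val : ℕ) : ZMod (2 ^ (k' + 1))) := (ZMod.natCast_zmod_val x).symm
  have hlt : x.val < 2 ^ (k' + 1) := ZMod.val_lt x
  have h2 : ((2 * x.val : ℕ) : ZMod (2 ^ (k' + 1))) = 0 := by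
    rw [Nat.cast_mul, ← hx]
    exact_mod_cast h
  rw [ZMod.natCast_eq_zero_iff] at h2
  have hpow : 2 ^ (k' + 1) = 2 * 2 ^ k' := by rw [pow_succ, mul_comm]
  generalize x.val = v at hlt h2 hx
  have h3 : 2 ^ k' ∣ v := by
    rw [hpow] at h2
    exact Nat.dvd_of_mul_dvd_mul_left (by norm_num) h2
  obtain ⟨c, hc⟩ := h3
  have hc2 : c < 2 := by
    by_contra hcon
    rw [not_lt] at hcon
    have : 2 ^ k' * 2 ≤ 2 ^ k' * c := Nat.mul_le_mul_left _ hcon
    omega
  interval_cases c
  · left
    rw [hx, hc]; simp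
  · right
    rw [hx, hc]; simp

section
variable {n : ℕ} (a : Fin n → ℕ)

/-- Elements of order at most two vanishing on the first `j` coordinates. -/
def WW (j : ℕ) : Set ((i : Fin n) → ZMod (2 ^ a i)) :=
  {x | 2 • x = 0 ∧ ∀ i : Fin n, i.val < j → x i = 0}

theorem mem_WW_iff (ha : StrictMono a) (ha1 : ∀ i, 1 ≤ a i) (j : Fin n)
    (x : (i : Fin n) → ZMod (2 ^ a i)) :
    x ∈ WW a j.val ↔ 2 • x = 0 ∧ ∃ y : (i : Fin n) → ZMod (2 ^ a i), x = 2 ^ (a j - 1) • y := by
  constructor
  · rintro ⟨h1, h2⟩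
    refine ⟨h1, fun i => if x i = 0 then 0 else 2 ^ (a i - a j), ?_⟩
    funext i
    by_cases hx : x i = 0
    · simp [hx]
    · have hij : j ≤ i := by
        by_contra hcon
        exact hx (h2 i (not_le.1 hcon))
      have haij : a j ≤ a i := ha.monotone hij
      have h3 : 2 * x i = 0 := by
        have := congrFun h1 i
        simpa [two_smul, two_mul] using this
      rcases zmod_two_mul_eq_zero (ha1 i) (x i) h3 with h | h
      · exact absurd h hx
      · simp only [Pi.smul_apply, hx, if_false, nsmul_eq_mul, Nat.cast_pow, Nat.cast_ofNat]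
        rw [h, ← pow_add]
        congr 1
        have := ha1 j
        omega
  · rintro ⟨h1, y, rfl⟩
    refine ⟨h1, fun i hi => ?_⟩
    have hlt : a i < a j := ha hi
    simp only [Pi.smul_apply, nsmul_eq_mul, Nat.cast_pow, Nat.cast_ofNat]
    have h0 : (2 : ZMod (2 ^ a i)) ^ (a j - 1) = 0 := by
      have h4 : (2 : ZMod (2 ^ a i)) ^ a i = 0 := by
        have := ZMod.natCast_self (2 ^ a i)
        rw [Nat.cast_pow] at this
        exact_mod_cast this
      have : a j - 1 = a i + (a j - 1 - a i) := by omega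
      rw [this, pow_add, h4, zero_mul]
    rw [h0, zero_mul]

/-- An automorphism of odd order of `∏ ℤ/2^{a i}` (distinct `a i`) fixes all elements of order two. -/
theorem fixes_order_two (ha : StrictMono a) (ha1 : ∀ i, 1 ≤ a i)
    (α : ((i : Fin n) → ZMod (2 ^ a i)) ≃+ ((i : Fin n) → ZMod (2 ^ a i))) (m : ℕ) (hm : Odd m)
    (hα : ∀ x, (α^[m]) x = x) : ∀ x : (i : Fin n) → ZMod (2 ^ a i), 2 • x = 0 → α x = x := by
  have hpres : ∀ j : Fin n, ∀ x ∈ WW a j.val, α x ∈ WW a j.val := by
    intro j x hx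
    rw [mem_WW_iff a ha ha1] at hx ⊢
    obtain ⟨h1, y, rfl⟩ := hx
    refine ⟨by rw [← map_nsmul, h1, map_zero], α y, map_nsmul α _ _⟩
  have key : ∀ d j : ℕ, j + d = n → ∀ x ∈ WW a j, α x = x := by
    intro d
    induction d with
    | zero =>
      intro j hj x hx
      have : x = 0 := by
        funext i
        exact hx.2 i (by have := i.2; omega)
      rw [this, map_zero]
    | succ d ih =>
      intro j hj x hx
      have hjn : j < n := by omega
      have ih' := ih (j + 1) (by omega)
      have hstep : ∀ z ∈ WW a j, z ⟨j, hjn⟩ = 0 → z ∈ WW a (j + 1) := by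
        intro z hz hz0
        refine ⟨hz.1, fun i hi => ?_⟩
        rcases Nat.lt_succ_iff_lt_or_eq.1 hi with h | h
        · exact hz.2 i h
        · have : i = ⟨j, hjn⟩ := Fin.ext h
          rw [this]; exact hz0
      have hαx : α x ∈ WW a j := hpres ⟨j, hjn⟩ x hx
      have hcoord : ∀ z ∈ WW a j, z ⟨j, hjn⟩ = 0 ∨ z ⟨j, hjn⟩ = 2 ^ (a ⟨j, hjn⟩ - 1) := by
        intro z hz
        apply zmod_two_mul_eq_zero (ha1 _)
        have := congrFun hz.1 ⟨j, hjn⟩
        simpa [two_smul, two_mul] using this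
      by_cases hx0 : x ⟨j, hjn⟩ = 0
      · exact ih' x (hstep x hx hx0)
      have hαx0 : α x ⟨j, hjn⟩ ≠ 0 := by
        intro h0
        have h1 := ih' (α x) (hstep _ hαx h0)
        have h2 : α x = x := α.injective h1
        rw [h2] at h0
        exact hx0 h0
      have hw : α x - x ∈ WW a (j + 1) := by
        apply hstep
        · refine ⟨by rw [smul_sub, hαx.1, hx.1, sub_zero], fun i hi => ?_⟩
          rw [Pi.sub_apply, hαx.2 i hi, hx.2 i hi, sub_zero]
        · rw [Pi.sub_apply]
          rcases hcoord x hx with h | h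
          · exact absurd h hx0
          · rcases hcoord _ hαx with h' | h'
            · exact absurd h' hαx0
            · rw [h, h', sub_self]
      have hwfix := ih' _ hw
      have hiter : ∀ k : ℕ, (α^[k]) x = x + k • (α x - x) := by
        intro k
        induction k with
        | zero => simp
        | succ k ihk =>
          rw [Function.iterate_succ_apply', ihk, map_add, map_nsmul, hwfix, succ_nsmul]
          abel
      have h5 := hiter m
      rw [hα x] at h5
      have h6 : m • (α x - x) = 0 := by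
        have := h5.symm
        rwa [add_eq_left] at this
      obtain ⟨c, rfl⟩ := hm
      have h7 : α x - x = 0 := by
        rw [add_smul, mul_smul, one_smul] at h6
        have h8 : 2 • c • (α x - x) = c • 2 • (α x - x) := smul_comm _ _ _
        rw [h8, hw.1, smul_zero, zero_add] at h6
        exact h6
      exact sub_eq_zero.1 h7
  intro x hx
  exact key n 0 (by omega) x ⟨hx, fun i hi => absurd hi (Nat.not_lt_zero _)⟩

end

end Cfsg.Agent.Lib.Helper90
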