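import Cfsg.Agent.Lib.Helper90.ControlSmall
import Cfsg.Agent.Lib.Helper90.FusionInner
import Cfsg.Agent.Lib.Helper87.Realized
import Cfsg.Agent.Lib.Helper87.HyperfocalGroup
import Cfsg.Agent.Lib.Helper87.ModelAut
import Cfsg.Agent.Lib.Helper87.NormalCrit
import Cfsg.Agent.Lib.Helper87.ConstrainedSub
import Cfsg.Agent.Lib.Helper87.NormRadical
import Cfsg.Agent.Lib.Helper86.FusionFrobenius
import Cfsg.Agent.Lib.Helper2.TateExt
import Cfsg.Agent.S5090

set_option autoImplicit false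

namespace Cfsg.Agent.Lib.Helper90

open Cfsg Cfsg.FusionSystem Cfsg.Agent.Lib.Helper87

universe u

/-- A system with a model in which all self-maps act trivially modulo the Frattini subgroup is inner
(Tate's theorem transported to models). -/
theorem inner_of_model_frattini {Ω : Type*} [Group Ω] {S : Subgroup Ω} [Finite S] {p : ℕ}
    [Fact p.Prime] {F : FusionSystem S} {G : Type*} [Group G] {ι : S →* G}
    (hG : F.IsModel p G ι)
    (h : ∀ (P : Subgroup Ω) (f : Ω → Ω), Mor F P f → (∀ x ∈ P, f x ∈ P) →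
      ∀ x ∈ P, x⁻¹ * f x ∈ (frattini ↥S).map S.subtype) :
    ∀ P : Subgroup Ω, F.Hom P = (innerFusionSystem S).Hom P := by
  obtain ⟨hfin, hreal, ⟨T, hT⟩, hcent⟩ := hG
  have hι := hreal.1
  -- the hyperfocal subgroup of `G` on `T` lies in the Frattini subgroup
  have hhyp : (groupFusionSystem (T : Subgroup G)).hyperfocalSubgroup p ≤
      (frattini ↥(T : Subgroup G)).map (T : Subgroup G).subtype := by
    unfold FusionSystem.hyperfocalSubgroup
    rw [Subgroup.closure_le]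
    rintro y ⟨P, α, x, hPT, -, rfl⟩
    have hαm := (mem_autGroup_iff _ hPT (α : MulAut P)).1 α.2
    obtain ⟨-, g, hg⟩ := (mor_group_iff _ _ _).1 hαm
    have hPr : ∀ z ∈ P, z ∈ ι.range := fun z hz => hT ▸ hPT hz
    set P' := pre ι P with hP'
    set f : Ω → Ω := fun x' => tinv ι (g * tf ι x' * g⁻¹) with hf
    have hgP : ∀ z ∈ P, g * z * g⁻¹ ∈ P := by
      intro z hz
      rw [← (hg z hz).1]
      exact autFun_mem _ hz
    have htf : ∀ x' ∈ P', tf ι (f x') = g * tf ι x' * g⁻¹ := by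
      intro x' hx'
      exact tf_tinv ι (hPr _ (hgP _ ((mem_pre ι P x').1 hx').2))
    have hmor : Mor F P' f := by
      rw [mor_realized_iff hreal]
      exact ⟨pre_le ι P, fun x' _ => tinv_mem ι _, g, htf⟩
    have hself : ∀ x' ∈ P', f x' ∈ P' := by
      intro x' hx'
      rw [mem_pre]
      refine ⟨tinv_mem ι _, ?_⟩
      rw [htf x' hx']
      exact hgP _ ((mem_pre ι P x').1 hx').2
    have hx' : tinv ι (x : G) ∈ P' := by
      rw [mem_pre]
      refine ⟨tinv_mem ι _, ?_⟩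
      rw [tf_tinv ι (hPr _ x.2)]
      exact x.2
    have h1 := h P' f hmor hself _ hx'
    obtain ⟨w, hw, hwe⟩ := h1
    -- transport along `ι`
    let e : ↥S →* ↥(T : Subgroup G) := ι.codRestrict (T : Subgroup G) (fun s => by
      rw [hT]; exact ⟨s, rfl⟩)
    have he : Function.Surjective e := by
      rintro ⟨t, ht⟩
      rw [hT] at ht
      obtain ⟨s, rfl⟩ := ht
      exact ⟨s, rfl⟩
    have h2 : e w ∈ frattini ↥(T : Subgroup G) := frattini_le_comap_frattini_of_surjective he hw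
    refine ⟨e w, h2, ?_⟩
    show ι w = _
    have h3 : tf ι ((tinv ι (x : G))⁻¹ * f (tinv ι (x : G))) = ι w := by
      rw [← tf_coe ι w]
      congr 1
      exact hwe.symm
    rw [← h3, tf_mul ι (S.inv_mem (tinv_mem ι _)) (tinv_mem ι _), tf_inv ι (tinv_mem ι _),
      htf _ hx', tf_tinv ι (hPr _ x.2), ← (hg x x.2).1, autFun_coe]
  have hK1 : (pResidual p G).subgroupOf (T : Subgroup G) ≤ frattini ↥(T : Subgroup G) := by
    intro y hy
    have h1 : (y : G) ∈ (T : Subgroup G) ⊓ pResidual p G := ⟨y.2, hy⟩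
    obtain ⟨w, hw, hwe⟩ := hhyp (inf_pResidual_le_hyperfocal T h1)
    have : w = y := Subtype.ext hwe
    rwa [← this]
  have hK2 := Cfsg.Agent.Lib.Helper2.tate_core T (pResidual p G)
    (Cfsg.Agent.Lib.Helper2.pResidual_pResidual p) hK1
  have hK3 : ∀ k ∈ pResidual p G, k ∈ (T : Subgroup G) → k = 1 := by
    intro k hk hkT
    have : (⟨k, hkT⟩ : (T : Subgroup G)) ∈ (pResidual p G).subgroupOf (T : Subgroup G) := hk
    rw [hK2, Subgroup.mem_bot] at this
    exact congrArg Subtype.val this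
  have hKn : (pResidual p G).Normal := inferInstance
  have hOn := pCore_normal' p G
  have hK4 : pResidual p G ≤ Subgroup.centralizer ((pCore p G : Subgroup G) : Set G) := by
    intro k hk
    rw [Subgroup.mem_centralizer_iff]
    intro x hx
    have h1 : k * (x * k⁻¹ * x⁻¹) ∈ pResidual p G :=
      Subgroup.mul_mem _ hk (hKn.conj_mem _ (Subgroup.inv_mem _ hk) x)
    have h2 : (k * x * k⁻¹) * x⁻¹ ∈ pCore p G :=
      Subgroup.mul_mem _ (hOn.conj_mem _ hx k) (Subgroup.inv_mem _ hx)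
    have h3 : k * (x * k⁻¹ * x⁻¹) = (k * x * k⁻¹) * x⁻¹ := by group
    have h4 := hK3 _ h1 (by rw [h3]; exact pCore_le_sylow' T h2)
    have h5 : k * x = x * k := by
      have : k * x = (k * (x * k⁻¹ * x⁻¹)) * (x * k) := by group
      rw [this, h4, one_mul]
    exact h5.symm
  have hK5 : pResidual p G = ⊥ := by
    rw [eq_bot_iff]
    intro k hk
    exact Subgroup.mem_bot.2 (hK3 k hk (pCore_le_sylow' T (hcent (hK4 hk))))
  have hTtop : (T : Subgroup G) = ⊤ := by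
    have := Cfsg.Agent.Lib.Helper2.sylow_sup_pResidual T
    rwa [hK5, sup_bot_eq] at this
  intro P
  apply Set.Subset.antisymm
  · apply hom_subset_of_mor
    intro f hf
    obtain ⟨hPS, hfS, g, hg⟩ := (mor_realized_iff hreal P f).1 hf
    have hgr : g ∈ ι.range := by rw [← hT, hTtop]; exact Subgroup.mem_top g
    obtain ⟨s, rfl⟩ := hgr
    rw [mor_inner_iff]
    refine ⟨hPS, s, s.2, fun x hx => ?_⟩
    apply tf_inj hι (hfS x hx) (S.mul_mem (S.mul_mem s.2 (hPS hx)) (S.inv_mem s.2))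
    rw [hg x hx, tf_conj ι s.2 (hPS hx), tf_coe]
  · exact Cfsg.Agent.Lib.Helper86.inner_le F P

/-- A subgroup containing the derived subgroup is fully normalized. -/
theorem fullyNormalized_of_comm_le {Ω : Type*} [Group Ω] {S : Subgroup Ω} [Finite S]
    (F : FusionSystem S) {Q P : Subgroup Ω}
    (hSQ : ∀ x ∈ S, ∀ s ∈ S, x⁻¹ * (s * x * s⁻¹) ∈ Q) (hQP : Q ≤ P) (hP : P ≤ S) :
    normalizerIn S P = S ∧ F.IsFullyNormalized P := by
  have h1 : normalizerIn S P = S := by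
    apply le_antisymm (normalizerIn_le S P)
    intro s hs
    apply mem_normalizerIn_of_conj hs
    · intro a ha
      have := P.mul_mem ha (hQP (hSQ a (hP ha) s hs))
      rwa [mul_inv_cancel_left] at this
    · intro a ha
      have := P.mul_mem ha (hQP (hSQ a (hP ha) s⁻¹ (S.inv_mem hs)))
      rwa [mul_inv_cancel_left] at this
  refine ⟨h1, hP, fun P' _ => ?_⟩
  rw [h1]
  exact card_le_of_le' le_rfl (normalizerIn_le S P')

/-- If `S/Q` is abelian, `Q` is strongly closed and `Aut_F(S)` is inner, then `Aut_F(P)` acts trivially on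
`P/Q` for `Q ≤ P`. -/
theorem aut_comm_mem_of_abelian_quot {Ω : Type*} [Group Ω] {S : Subgroup Ω} [Finite S] {p : ℕ}
    [Fact p.Prime] (hS : IsPGroup p S) {F : FusionSystem S} (hF : F.IsSaturated p)
    {Q : Subgroup Ω} (hQ : F.StronglyClosed Q)
    (hSQ : ∀ x ∈ S, ∀ s ∈ S, x⁻¹ * (s * x * s⁻¹) ∈ Q)
    (hA : ∀ f, Mor F S f → ∃ t ∈ S, ∀ x ∈ S, f x = t * x * t⁻¹)
    {P : Subgroup Ω} (hQP : Q ≤ P) (hP : P ≤ S) {β : MulAut P} (hβ : β ∈ F.autGroup P) :
    ∀ x : P, (x : Ω)⁻¹ * (β x : P) ∈ Q := by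
  have : Finite P := Lib.Helper90.finite_of_le hP
  obtain ⟨hNP, hfn⟩ := fullyNormalized_of_comm_le F hSQ hQP hP
  have hrec := fullyNormalized_receptive hS hF hfn
  have hsyl := (fullyAutomized_iff F p hP).1 (fullyNormalized_fullyAutomized hS hF hfn)
  let X : ℕ → Subgroup Ω := fun i => Nat.casesOn i Q (fun _ => S)
  have hX : ∀ i, F.StronglyClosed (X i) := by
    intro i
    cases i with
    | zero => exact hQ
    | succ j => exact stronglyClosed_top F
  set C := chainStab F P hP X hX 1 with hC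
  have hmemC : ∀ γ : MulAut P, γ ∈ C ↔ γ ∈ F.autGroup P ∧ ∀ x : P, (x : Ω)⁻¹ * (γ x : P) ∈ Q := by
    intro γ
    constructor
    · rintro ⟨h1, h2⟩
      exact ⟨h1, fun x => h2 0 Nat.one_pos x (hP x.2)⟩
    · rintro ⟨h1, h2⟩
      refine ⟨h1, fun i hi x _ => ?_⟩
      obtain rfl : i = 0 := by omega
      exact h2 x
  have hCA : C ≤ F.autGroup P := fun γ hγ => hγ.1
  have hASC : autInducedBy S P ≤ C := by
    intro γ hγ
    rw [hmemC]
    refine ⟨autInducedBy_le_autGroup F hP hγ, fun x => ?_⟩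
    obtain ⟨g, hg, e⟩ := (mem_autInducedBy_iff S P γ).1 hγ
    rw [e]
    exact hSQ x (hP x.2) g hg
  have hsylC : IsSylIn p (autInducedBy S P) C := hsyl.mono hASC hCA
  have hL : cj β (autInducedBy S P) ≤ C := by
    rw [cj_le_iff]
    intro δ hδ
    exact chainStab_normal F P hP X hX 1 β hβ δ (hASC hδ)
  obtain ⟨c, hc, hcL⟩ := hsylC.exists_conj hL (isPGroup_cj hsyl.2.1 β)
  set γ := c * β with hγ
  have hγA : γ ∈ F.autGroup P := Subgroup.mul_mem _ (hCA hc) hβ
  have hγm := (mem_autGroup_iff F hP γ).1 hγA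
  obtain ⟨f', hf', hf'e⟩ := receptive_extend hrec (iso_autFun hγm) S le_rfl
    (by
      intro s hs
      have : s ∈ normalizerIn S P := by rw [hNP]; exact hs
      exact this.2)
    (by
      intro g hg
      obtain ⟨δ, hδ, hδe⟩ := exists_conj_aut (S := S) (P := P) (t := g) (by rw [hNP]; exact hg)
      have h1 : c * (β * δ * β⁻¹) * c⁻¹ ∈ autInducedBy S P := hcL _ (conj_mem_cj hδ)
      obtain ⟨k, hk, hke⟩ := (mem_autInducedBy_iff S P _).1 h1
      refine ⟨k, hk, fun x hx => ?_⟩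
      have h2 := hke (γ ⟨x, hx⟩)
      have h3 : (c * (β * δ * β⁻¹) * c⁻¹) (γ ⟨x, hx⟩) = γ (δ ⟨x, hx⟩) := by
        simp only [hγ, MulAut.mul_apply, MulAut.inv_apply_self]
      rw [h3] at h2
      rw [autFun_apply γ hx, ← h2, ← autFun_coe, hδe])
  have hsup : P ⊔ S = S := sup_eq_right.2 hP
  rw [hsup] at hf'
  obtain ⟨t, ht, hte⟩ := hA f' hf'
  have hγC : γ ∈ C := by
    rw [hmemC]
    refine ⟨hγA, fun x => ?_⟩
    rw [← autFun_coe, ← hf'e x x.2, hte x (hP x.2)]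
    exact hSQ x (hP x.2) t ht
  have hβC : β ∈ C := by
    have : β = c⁻¹ * γ := by rw [hγ, inv_mul_cancel_left]
    rw [this]
    exact C.mul_mem (C.inv_mem hc) hγC
  exact ((hmemC β).1 hβC).2

/-- Same for self-maps of arbitrary subgroups, when `Q` is normal in the system. -/
theorem self_comm_mem_of_abelian_quot {Ω : Type*} [Group Ω] {S : Subgroup Ω} [Finite S] {p : ℕ}
    [Fact p.Prime] (hS : IsPGroup p S) {F : FusionSystem S} (hF : F.IsSaturated p)
    {Q : Subgroup Ω} (hQ : F.IsNormal Q)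
    (hSQ : ∀ x ∈ S, ∀ s ∈ S, x⁻¹ * (s * x * s⁻¹) ∈ Q)
    (hA : ∀ f, Mor F S f → ∃ t ∈ S, ∀ x ∈ S, f x = t * x * t⁻¹)
    {P : Subgroup Ω} {f : Ω → Ω} (hf : Mor F P f) (hself : ∀ x ∈ P, f x ∈ P) :
    ∀ x ∈ P, x⁻¹ * f x ∈ Q := by
  have hQsc : F.StronglyClosed Q := Lib.Helper90.IsNormal.stronglyClosed hQ
  obtain ⟨f₁, hf₁, hf₁e, hf₁Q⟩ := ((isNormal_iff F Q).1 hQ).2 P f hf
  have hP₁ : P ⊔ Q ≤ S := hf₁.le
  have : Finite ↥(P ⊔ Q) := Lib.Helper90.finite_of_le hP₁
  have hself₁ : ∀ y ∈ P ⊔ Q, f₁ y ∈ P ⊔ Q := by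
    intro y hy
    obtain ⟨a, ha, b, hb, rfl⟩ := mem_sup_of_normalizes
      (fun a ha b hb => StronglyClosed.conj_mem hQsc (hf.le ha) hb) hy
    rw [hf₁.map_mul ((le_sup_left : P ≤ P ⊔ Q) ha) ((le_sup_right : Q ≤ P ⊔ Q) hb)]
    refine Subgroup.mul_mem _ ((le_sup_left : P ≤ P ⊔ Q) ?_) ((le_sup_right : Q ≤ P ⊔ Q) ?_)
    · rw [hf₁e a ha]; exact hself a ha
    · exact (hf₁Q _).2 ⟨b, hb, rfl⟩
  obtain ⟨β, hβ, hβe⟩ := (hf₁.iso_self hself₁).exists_aut
  intro x hx
  have h1 := aut_comm_mem_of_abelian_quot hS hF hQsc hSQ hA le_sup_right hP₁ hβ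
    ⟨x, (le_sup_left : P ≤ P ⊔ Q) hx⟩
  rw [hβe, hf₁e x hx] at h1
  exact h1

/-- If `Q` is normal in `F` with `S/Q` abelian then `F` is constrained. -/
theorem constrained_of_abelian_quot {Ω : Type*} [Group Ω] {S : Subgroup Ω} [Finite S] {p : ℕ}
    [Fact p.Prime] (hS : IsPGroup p S) {F : FusionSystem S} (hF : F.IsSaturated p)
    {Q : Subgroup Ω} (hQ : F.IsNormal Q)
    (hSQ : ∀ x ∈ S, ∀ s ∈ S, x⁻¹ * (s * x * s⁻¹) ∈ Q) : F.IsConstrained p := by
  have hQsc : F.StronglyClosed Q := Lib.Helper90.IsNormal.stronglyClosed hQ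
  have hCsc : F.StronglyClosed (centralizerIn S Q) := by
    rw [Lib.Helper90.stronglyClosed_iff]
    refine ⟨centralizerIn_le S Q, fun R f hR hf x hx => ?_⟩
    obtain ⟨f₁, hf₁, hf₁e, hf₁Q⟩ := ((isNormal_iff F Q).1 hQ).2 R f hf
    rw [mem_centralizerIn_iff]
    refine ⟨hf.mem hx, fun y hy => ?_⟩
    obtain ⟨z, hz, rfl⟩ := (hf₁Q y).1 hy
    have hxR : x ∈ R ⊔ Q := (le_sup_left : R ≤ R ⊔ Q) hx
    have hzR : z ∈ R ⊔ Q := (le_sup_right : Q ≤ R ⊔ Q) hz
    rw [← hf₁e x hx, ← hf₁.map_mul hzR hxR, ← hf₁.map_mul hxR hzR,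
      ((mem_centralizerIn_iff S Q x).1 (hR hx)).2 z hz]
  let X : ℕ → Subgroup Ω := fun i => Nat.casesOn i ⊥ (fun j => Nat.casesOn j Q (fun _ => S))
  have hX : ∀ i, F.StronglyClosed (X i) := by
    intro i
    match i with
    | 0 => exact stronglyClosed_bot F
    | 1 => exact hQsc
    | (j + 2) => exact stronglyClosed_top F
  have hCn : F.IsNormal (centralizerIn S Q) := by
    refine isNormal_of_series hS hF hCsc X hX 2 rfl (isNormal_bot F) (isPGroup_autGroup_bot F p) ?_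
    intro i hi q hq x hx
    match i, hi with
    | 0, _ =>
      have hx' : x ∈ Q := hx
      show x⁻¹ * (q * x * q⁻¹) ∈ (⊥ : Subgroup Ω)
      rw [Subgroup.mem_bot, ← ((mem_centralizerIn_iff S Q q).1 hq).2 x hx']
      group
    | 1, _ =>
      have hx' : x ∈ S := hx
      exact hSQ x hx' q (centralizerIn_le S Q hq)
  have hRn : F.IsNormal (Q ⊔ centralizerIn S Q) := IsNormal.sup hQ hCn
  refine ⟨hF, _, hRn, hRn.1, fun R' hR' => ?_⟩
  rw [IsNormal.eq_of_isConj hRn hR']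
  intro c hc
  apply (le_sup_right : centralizerIn S Q ≤ Q ⊔ centralizerIn S Q)
  rw [mem_centralizerIn_iff] at hc ⊢
  exact ⟨hc.1, fun x hx => hc.2 x ((le_sup_left : Q ≤ Q ⊔ centralizerIn S Q) hx)⟩

/-- If `Q ≤ Φ(S)` is normal in the saturated system `F`, `S/Q` is abelian and `Aut_F(S)` is inner,
then `F` is inner. -/
theorem inner_of_normal_between {Ω : Type u} [Group Ω] {S : Subgroup Ω} [Finite S] {p : ℕ}
    [Fact p.Prime] (hS : IsPGroup p S) {F : FusionSystem S} (hF : F.IsSaturated p)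
    {Q : Subgroup Ω} (hQ : F.IsNormal Q)
    (hSQ : ∀ x ∈ S, ∀ s ∈ S, x⁻¹ * (s * x * s⁻¹) ∈ Q)
    (hQΦ : Q ≤ (frattini ↥S).map S.subtype)
    (hA : ∀ f, Mor F S f → ∃ t ∈ S, ∀ x ∈ S, f x = t * x * t⁻¹) :
    ∀ P : Subgroup Ω, F.Hom P = (innerFusionSystem S).Hom P := by
  obtain ⟨G, _, ι, hG⟩ := Cfsg.Agent.S5090.result p hS F (constrained_of_abelian_quot hS hF hQ hSQ)
  exact inner_of_model_frattini hG (fun P f hf hself x hx =>
    hQΦ (self_comm_mem_of_abelian_quot hS hF hQ hSQ hA hf hself x hx))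

end Cfsg.Agent.Lib.Helper90
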