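import Mathlib

set_option autoImplicit false

namespace Cfsg.Agent.Lib.Helper90

open scoped BigOperators

section
variable {V : Type*} [CommGroup V] {A : Type*} [Group A] (ρ : A →* MulAut V) (T : Subgroup A)

/-- Fixed points of a subgroup under an action by automorphisms. -/
def fixOf : Subgroup V where
  carrier := {v | ∀ t ∈ T, ρ t v = v}
  mul_mem' := fun {a b} ha hb t ht => by rw [map_mul, ha t ht, hb t ht]
  one_mem' := fun t _ => map_one (ρ t)
  inv_mem' := fun {a} ha t ht => by rw [map_inv, ha t ht]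

theorem mem_fixOf (v : V) : v ∈ fixOf ρ T ↔ ∀ t ∈ T, ρ t v = v := Iff.rfl

variable [Fintype (A ⧸ T)]

/-- The relative trace. -/
noncomputable def traceMap : V →* V := ∏ q : A ⧸ T, (ρ q.out).toMonoidHom

theorem traceMap_apply (v : V) : traceMap ρ T v = ∏ q : A ⧸ T, ρ q.out v := by
  unfold traceMap
  rw [MonoidHom.finsetProd_apply]
  rfl

theorem traceMap_fixed (v : V) (hv : v ∈ fixOf ρ T) (β : A) : ρ β (traceMap ρ T v) = traceMap ρ T v := by
  rw [traceMap_apply, map_prod]
  refine Fintype.prod_equiv (MulAction.toPerm β) _ _ (fun q => ?_)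
  show ρ β (ρ q.out v) = ρ (β • q).out v
  have h1 : β • q = QuotientGroup.mk (β * q.out) := by
    conv_lhs => rw [← QuotientGroup.out_eq' q]
    rfl
  obtain ⟨h, hh⟩ := QuotientGroup.mk_out_eq_mul T (β * q.out)
  rw [h1, hh, map_mul, map_mul, MulAut.mul_apply, MulAut.mul_apply, hv h h.2]

theorem traceMap_of_fixed (v : V) (hv : v ∈ fixOf ρ ⊤) : traceMap ρ T v = v ^ Fintype.card (A ⧸ T) := by
  rw [traceMap_apply]
  have h : ∀ q ∈ (Finset.univ : Finset (A ⧸ T)), ρ q.out v = v := fun q _ => hv _ trivial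
  rw [Finset.prod_congr rfl h, Finset.prod_const, Finset.card_univ]

end

/-- If `T` has index prime to `|V|` in `A`, then `C_V(A)` is a direct factor of `C_V(T)`. -/
theorem trace_direct_factor {V : Type*} [CommGroup V] [Finite V] {A : Type*} [Group A] [Finite A]
    (ρ : A →* MulAut V) (T : Subgroup A) (hcop : (Nat.card V).Coprime T.index) :
    ∃ K : Subgroup V, K ≤ fixOf ρ T ∧ fixOf ρ ⊤ ⊓ K = ⊥ ∧ fixOf ρ ⊤ ⊔ K = fixOf ρ T := by
  classical
  have : Fintype (A ⧸ T) := Fintype.ofFinite _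
  have hcard : Fintype.card (A ⧸ T) = T.index := by
    rw [Subgroup.index, Nat.card_eq_fintype_card]
  have hCW : fixOf ρ ⊤ ≤ fixOf ρ T := fun v hv t _ => hv t trivial
  refine ⟨(traceMap ρ T).ker ⊓ fixOf ρ T, inf_le_right, ?_, ?_⟩
  · rw [eq_bot_iff]
    rintro v ⟨hv1, hv2, -⟩
    have h1 : traceMap ρ T v = 1 := hv2
    rw [traceMap_of_fixed ρ T v hv1, hcard] at h1
    have h2 : orderOf v ∣ T.index := orderOf_dvd_of_pow_eq_one h1
    have h3 : orderOf v ∣ Nat.card V := orderOf_dvd_natCard v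
    exact orderOf_eq_one_iff.1 (Nat.eq_one_of_dvd_coprimes hcop h3 h2)
  · apply le_antisymm (sup_le hCW inf_le_right)
    intro v hv
    have htr : traceMap ρ T v ∈ fixOf ρ ⊤ := fun β _ => traceMap_fixed ρ T v hv β
    set c := (powCoprime hcop).symm (traceMap ρ T v) with hc
    have hcC : c ∈ fixOf ρ ⊤ := by
      rw [hc, powCoprime_symm_apply]
      exact Subgroup.zpow_mem _ htr _
    have hck : c ^ T.index = traceMap ρ T v := by
      have := (powCoprime hcop).apply_symm_apply (traceMap ρ T v)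
      exact this
    have h1 : v = c * (c⁻¹ * v) := by group
    rw [h1]
    apply Subgroup.mul_mem
    · exact (le_sup_left : fixOf ρ ⊤ ≤ _) hcC
    · apply (le_sup_right : (traceMap ρ T).ker ⊓ fixOf ρ T ≤ _)
      refine ⟨?_, Subgroup.mul_mem _ (Subgroup.inv_mem _ (hCW hcC)) hv⟩
      show traceMap ρ T (c⁻¹ * v) = 1
      rw [map_mul, map_inv, traceMap_of_fixed ρ T c hcC, hcard, hck, inv_mul_cancel]

end Cfsg.Agent.Lib.Helper90
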